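import Cfsg.Agent.H228.RedSylow
import Cfsg.Agent.H239.CharPLocal
import Cfsg.Agent.Lib.ThompsonPQ

/-!
`cp_centralizer`: if `K ⊲ G`, `x` is a 2-element, `C_K(x)` has characteristic 2 and `x` commutes with some `z ∈ K` with
`C_G(z)` of characteristic 2, then `C_G(x)` has characteristic 2.
-/

set_option autoImplicit false

namespace Cfsg.Agent.H215.L2Out.Cent

open Subgroup Cfsg Cfsg.Agent.H227.Weak Cfsg.Agent.H228
open Cfsg.Agent.H239.CharPLocal (CP)

variable {G : Type*} [Group G] [Finite G] {p : ℕ} [hp : Fact p.Prime]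

/-- `CP`, in the ambient group -/
theorem cp_iff {H : Subgroup G} : CP p ↥H ↔ H ⊓ centralizer ((pCoreOf p H : Subgroup G) : Set G) ≤ pCoreOf p H := by
  constructor
  · intro h y hy
    have h1 : (⟨y, hy.1⟩ : ↥H) ∈ pCore p ↥H := by
      apply h
      rw [mem_centralizer_iff]
      intro r hr
      apply Subtype.ext
      exact mem_centralizer_iff.1 hy.2 _ ⟨r, hr, rfl⟩
    exact ⟨_, h1, rfl⟩
  · intro h y hy
    have h1 : (y : G) ∈ pCoreOf p H := by
      refine h (mem_inf.2 ⟨y.2, ?_⟩)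
      rw [mem_centralizer_iff]
      rintro _ ⟨r, hr, rfl⟩
      exact congrArg Subtype.val (mem_centralizer_iff.1 hy r hr)
    obtain ⟨r, hr, hry⟩ := h1
    have : r = y := Subtype.ext hry
    rwa [← this]

omit [Finite G] hp in
theorem le_normalizer_of {H D : Subgroup G} (h : ∀ g ∈ H, ∀ d ∈ D, g * d * g⁻¹ ∈ D) :
    H ≤ normalizer (D : Set G) := by
  intro g hg
  rw [mem_normalizer_iff]
  refine fun d => ⟨h g hg d, fun hd => ?_⟩
  have h1 := h g⁻¹ (inv_mem hg) _ hd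
  have h2 : g⁻¹ * (g * d * g⁻¹) * g⁻¹⁻¹ = d := by group
  rwa [h2] at h1

omit [Finite G] hp in
/-- an element of order prime to `p` which commutes with `c = n⁻¹ n^y`, a `p`-element, commutes with `n` -/
theorem comm_of {y n c : G} (hy : (orderOf y).Coprime p) (hc : ∃ k : ℕ, c ^ p ^ k = 1) (hn : y * n * y⁻¹ = n * c)
    (hyc : y * c = c * y) : y * n = n * y := by
  have h1 : ∀ k : ℕ, y ^ k * n * (y ^ k)⁻¹ = n * c ^ k := by
    intro k
    induction k with
    | zero => simp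
    | succ k ih =>
      have h2 : y ^ (k + 1) * n * (y ^ (k + 1))⁻¹ = y ^ k * (y * n * y⁻¹) * (y ^ k)⁻¹ := by
        rw [pow_succ]; group
      have h3 : y ^ k * c = c * y ^ k := (Commute.pow_left (show Commute y c from hyc) k)
      have h4 : y ^ k * (n * c) * (y ^ k)⁻¹ = y ^ k * n * (y ^ k)⁻¹ * c := by
        calc y ^ k * (n * c) * (y ^ k)⁻¹ = y ^ k * n * (c * (y ^ k)⁻¹) := by group
          _ = y ^ k * n * ((y ^ k)⁻¹ * (y ^ k * c) * (y ^ k)⁻¹) := by group
          _ = y ^ k * n * ((y ^ k)⁻¹ * (c * y ^ k) * (y ^ k)⁻¹) := by rw [h3]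
          _ = _ := by group
      rw [h2, hn, h4, ih, mul_assoc, ← pow_succ]
  have h2 := h1 (orderOf y)
  rw [pow_orderOf_eq_one, one_mul, inv_one, mul_one] at h2
  have h3 : c ^ orderOf y = 1 := by
    have h4 := h2.symm
    rwa [mul_eq_left] at h4
  obtain ⟨k, hk⟩ := hc
  have h4 : orderOf c ∣ p ^ k := orderOf_dvd_of_pow_eq_one hk
  have h5 : orderOf c ∣ orderOf y := orderOf_dvd_of_pow_eq_one h3
  have h6 : orderOf c = 1 := Nat.eq_one_of_dvd_coprimes (Nat.Coprime.pow_right k hy) h5 h4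
  rw [orderOf_eq_one_iff] at h6
  rw [h6, mul_one] at hn
  calc y * n = y * n * y⁻¹ * y := by group
    _ = n * y := by rw [hn]

/-- **Centralizers of characteristic `p`.** -/
theorem cp_centralizer (K : Subgroup G) [hK : K.Normal] {x z : G} (hx : ∃ k : ℕ, x ^ p ^ k = 1) (hzK : z ∈ K)
    (hxz : x * z = z * x) (hN : CP p ↥(K ⊓ centralizer ({x} : Set G) : Subgroup G))
    (hz : CP p ↥(centralizer ({z} : Set G))) : CP p ↥(centralizer ({x} : Set G)) := by
  obtain ⟨L, hL⟩ : ∃ L, L = centralizer ({x} : Set G) := ⟨_, rfl⟩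
  obtain ⟨C, hC⟩ : ∃ C, C = centralizer ({z} : Set G) := ⟨_, rfl⟩
  rw [← hL] at hN ⊢
  rw [← hC] at hz
  rw [cp_iff] at hN hz
  have hmemL : ∀ g : G, g ∈ L ↔ g * x = x * g := by
    intro g; rw [hL, mem_centralizer_singleton_iff]
  have hmemC : ∀ g : G, g ∈ C ↔ g * z = z * g := by
    intro g; rw [hC, mem_centralizer_singleton_iff]
  obtain ⟨N, hNdef⟩ : ∃ N : Subgroup G, N = K ⊓ L := ⟨_, rfl⟩
  rw [← hNdef] at hN
  have hNL : N ≤ L := by rw [hNdef]; exact inf_le_right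
  have hLN : L ≤ normalizer (N : Set G) := by
    refine le_normalizer_of fun g hg n hn => ?_
    rw [hNdef, mem_inf] at hn ⊢
    exact ⟨hK.conj_mem n hn.1 g, L.mul_mem (L.mul_mem hg hn.2) (L.inv_mem hg)⟩
  have hRNL : pCoreOf p N ≤ pCoreOf p L :=
    le_pCoreOf (isPGroup_pCoreOf N) ((pCoreOf_le p N).trans hNL) (hLN.trans (normalizer_le_normalizer_pCoreOf p N))
  -- the normal subgroup `B = C_L(O_p(L))`
  obtain ⟨B, hB⟩ : ∃ B : Subgroup G, B = L ⊓ centralizer ((pCoreOf p L : Subgroup G) : Set G) := ⟨_, rfl⟩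
  have hBL : B ≤ L := by rw [hB]; exact inf_le_left
  have hLR : L ≤ normalizer ((pCoreOf p L : Subgroup G) : Set G) := le_normalizer.trans (normalizer_le_normalizer_pCoreOf p L)
  have hBR : ∀ b ∈ B, ∀ r ∈ pCoreOf p L, b * r = r * b := by
    intro b hb r hr
    rw [hB] at hb
    exact (mem_centralizer_iff.1 hb.2 r hr).symm
  have hconj : ∀ g ∈ L, ∀ r ∈ pCoreOf p L, g * r * g⁻¹ ∈ pCoreOf p L := fun g hg r hr =>
    (mem_normalizer_iff.1 (hLR hg) r).1 hr
  have hBn : ∀ g ∈ L, ∀ b ∈ B, g * b * g⁻¹ ∈ B := by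
    intro g hg b hb
    rw [hB, mem_inf]
    refine ⟨L.mul_mem (L.mul_mem hg (hBL hb)) (L.inv_mem hg), ?_⟩
    rw [mem_centralizer_iff]
    intro r hr
    have h2 := hBR b hb (g⁻¹ * r * g) (by
      have := hconj g⁻¹ (L.inv_mem hg) r hr
      rwa [inv_inv] at this)
    calc r * (g * b * g⁻¹) = g * (g⁻¹ * r * g * b) * g⁻¹ := by group
      _ = g * (b * (g⁻¹ * r * g)) * g⁻¹ := by rw [h2]
      _ = _ := by group
  have hLB : L ≤ normalizer (B : Set G) := le_normalizer_of hBn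
  have hpow : ∀ {H : Subgroup G}, IsPGroup p H → ∀ c ∈ H, ∃ k : ℕ, c ^ p ^ k = 1 := by
    intro H hH c hc
    obtain ⟨k, hk⟩ := hH ⟨c, hc⟩
    exact ⟨k, congrArg Subtype.val hk⟩
  -- (1) elements of order prime to `p` of `B` centralise `N`
  have h1 : ∀ y ∈ B, (orderOf y).Coprime p → ∀ n ∈ N, y * n = n * y := by
    intro y hy hyo n hn
    have hyn : y * n * y⁻¹ ∈ N := (mem_normalizer_iff.1 (hLN (hBL hy)) n).1 hn
    obtain ⟨c, hc⟩ : ∃ c, c = n⁻¹ * (y * n * y⁻¹) := ⟨_, rfl⟩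
    have hcN : c ∈ N := by rw [hc]; exact mul_mem (inv_mem hn) hyn
    have hcR : c ∈ pCoreOf p N := by
      refine hN (mem_inf.2 ⟨hcN, ?_⟩)
      rw [mem_centralizer_iff]
      intro r hr
      have e1 : y * r = r * y := hBR y hy r (hRNL hr)
      have e2 : n * r * n⁻¹ ∈ pCoreOf p N :=
        (mem_normalizer_iff.1 ((le_normalizer.trans (normalizer_le_normalizer_pCoreOf p N)) hn) r).1 hr
      have e3 : y * (n * r * n⁻¹) = n * r * n⁻¹ * y := hBR y hy _ (hRNL e2)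
      have e4 : y⁻¹ * r * y = r := by
        calc y⁻¹ * r * y = y⁻¹ * (r * y) := by group
          _ = y⁻¹ * (y * r) := by rw [e1]
          _ = r := by group
      have e5 : c * r * c⁻¹ = r := by
        calc c * r * c⁻¹ = n⁻¹ * (y * (n * (y⁻¹ * r * y) * n⁻¹)) * y⁻¹ * n := by rw [hc]; group
          _ = n⁻¹ * (y * (n * r * n⁻¹)) * y⁻¹ * n := by rw [e4]
          _ = n⁻¹ * (n * r * n⁻¹ * y) * y⁻¹ * n := by rw [e3]
          _ = r := by group
      calc r * c = c * r * c⁻¹ * c := by rw [e5]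
        _ = c * r := by group
    refine comm_of (p := p) (c := c) hyo (hpow (isPGroup_pCoreOf N) c hcR) (by rw [hc]; group) ?_
    exact hBR y hy c (hRNL hcR)
  have hzN : z ∈ N := by
    rw [hNdef, mem_inf]
    exact ⟨hzK, (hmemL z).2 hxz.symm⟩
  -- the subgroup generated by the elements of order prime to `p` of `B`
  obtain ⟨B₁, hB₁⟩ : ∃ B₁ : Subgroup G, B₁ = closure {y | y ∈ B ∧ (orderOf y).Coprime p} := ⟨_, rfl⟩
  have hB₁B : B₁ ≤ B := by
    rw [hB₁, closure_le]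
    exact fun y hy => hy.1
  have hB₁n : L ≤ normalizer (B₁ : Set G) := by
    refine le_normalizer_of fun g hg b hb => ?_
    have e1 : B₁ ≤ B₁.comap (MulAut.conj g).toMonoidHom := by
      conv_lhs => rw [hB₁]
      rw [closure_le]
      rintro y ⟨hy, hyo⟩
      show g * y * g⁻¹ ∈ B₁
      rw [hB₁]
      refine subset_closure ⟨hBn g hg y hy, ?_⟩
      rwa [show g * y * g⁻¹ = MulAut.conj g y from rfl, MulEquiv.orderOf_eq]
    exact e1 hb
  have hB₁C : B₁ ≤ C := by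
    rw [hB₁, closure_le]
    rintro y ⟨hy, hyo⟩
    exact (hmemC y).2 (h1 y hy hyo z hzN)
  have hRC : C ≤ normalizer ((pCoreOf p C : Subgroup G) : Set G) :=
    le_normalizer.trans (normalizer_le_normalizer_pCoreOf p C)
  -- `W = C_{O_p(C)}(x)`
  obtain ⟨W, hW⟩ : ∃ W : Subgroup G, W = pCoreOf p C ⊓ L := ⟨_, rfl⟩
  have hWp : IsPGroup p W := (isPGroup_pCoreOf C).to_le (by rw [hW]; exact inf_le_left)
  have hWn : C ⊓ L ≤ normalizer (W : Set G) := by
    refine le_normalizer_of fun g hg w hw => ?_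
    rw [mem_inf] at hg
    rw [hW, mem_inf] at hw ⊢
    exact ⟨(mem_normalizer_iff.1 (hRC hg.1) w).1 hw.1, L.mul_mem (L.mul_mem hg.2 hw.2) (L.inv_mem hg.2)⟩
  have hE : W ⊓ B₁ ≤ pCoreOf p L := by
    have e1 : W ⊓ B₁ ≤ pCoreOf p B₁ := by
      refine le_pCoreOf (hWp.to_le inf_le_left) inf_le_right (le_normalizer_of fun g hg w hw => ?_)
      rw [mem_inf] at hw ⊢
      exact ⟨(mem_normalizer_iff.1 (hWn (mem_inf.2 ⟨hB₁C hg, hBL (hB₁B hg)⟩)) w).1 hw.1,
        B₁.mul_mem (B₁.mul_mem hg hw.2) (B₁.inv_mem hg)⟩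
    refine e1.trans ?_
    exact le_pCoreOf (isPGroup_pCoreOf B₁) ((pCoreOf_le p B₁).trans (hB₁B.trans hBL))
      (hB₁n.trans (normalizer_le_normalizer_pCoreOf p B₁))
  -- (2) elements of order prime to `p` of `B` are trivial
  have h2 : ∀ y ∈ B, (orderOf y).Coprime p → y = 1 := by
    intro y hy hyo
    have hyB₁ : y ∈ B₁ := by rw [hB₁]; exact subset_closure ⟨hy, hyo⟩
    have hyC := hB₁C hyB₁
    have hyL := hBL hy
    -- `y` centralises `W`
    have hyW : ∀ w ∈ W, y * w = w * y := by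
      intro w hw
      have hwL : w ∈ L := by rw [hW, mem_inf] at hw; exact hw.2
      have hyw : y * w * y⁻¹ ∈ W := (mem_normalizer_iff.1 (hWn (mem_inf.2 ⟨hyC, hyL⟩)) w).1 hw
      have hcW : w⁻¹ * (y * w * y⁻¹) ∈ W := mul_mem (inv_mem hw) hyw
      have hcB : w⁻¹ * (y * w * y⁻¹) ∈ B₁ := by
        have e1 : w⁻¹ * y * w⁻¹⁻¹ ∈ B₁ := (mem_normalizer_iff.1 (hB₁n (L.inv_mem hwL)) y).1 hyB₁
        have e2 : w⁻¹ * (y * w * y⁻¹) = w⁻¹ * y * w⁻¹⁻¹ * y⁻¹ := by group
        rw [e2]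
        exact mul_mem e1 (inv_mem hyB₁)
      refine comm_of (p := p) (c := w⁻¹ * (y * w * y⁻¹)) hyo (hpow hWp _ hcW) (by group) ?_
      exact hBR y hy _ (hE (mem_inf.2 ⟨hcW, hcB⟩))
    have hc : Subgroup.zpowers y ≤ Subgroup.centralizer ((pCoreOf p C : Subgroup G) : Set G) := by
      have hcomm : x * y = y * x := ((hmemL y).1 hyL).symm
      refine Lib.ThompsonPQ.thompson_p_times_q p (zpowers x) (zpowers y) (pCoreOf p C) ?_ ?_ (isPGroup_pCoreOf C)
        ?_ ?_ ?_ ?_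
      · obtain ⟨k, hk⟩ := hx
        rintro ⟨_, j, rfl⟩
        refine ⟨k, Subtype.ext ?_⟩
        show (x ^ j) ^ p ^ k = 1
        rw [← zpow_natCast, ← zpow_mul, mul_comm, zpow_mul, zpow_natCast, hk, one_zpow]
      · rw [Nat.card_zpowers]
        exact hyo
      · rw [zpowers_le, mem_centralizer_iff]
        rintro _ ⟨j, rfl⟩
        exact ((show Commute y x from hcomm.symm).zpow_left j).eq
      · rw [zpowers_le]
        exact hRC ((hmemC x).2 hxz)
      · rw [zpowers_le]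
        exact hRC hyC
      · intro w hw
        rw [mem_inf] at hw
        have hwL : w ∈ L := by
          rw [hmemL]
          exact (mem_centralizer_iff.1 hw.2 x (mem_zpowers x)).symm
        have hwW : w ∈ W := by rw [hW, mem_inf]; exact ⟨hw.1, hwL⟩
        rw [mem_centralizer_iff]
        rintro _ ⟨j, rfl⟩
        exact ((show Commute y w from hyW w hwW).zpow_left j).eq
    have h3 : y ∈ pCoreOf p C := hz (mem_inf.2 ⟨hyC, hc (mem_zpowers y)⟩)
    obtain ⟨k, hk⟩ := hpow (isPGroup_pCoreOf C) y h3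
    have h4 : orderOf y ∣ p ^ k := orderOf_dvd_of_pow_eq_one hk
    have h6 : orderOf y = 1 := Nat.eq_one_of_dvd_coprimes (Nat.Coprime.pow_right k hyo) dvd_rfl h4
    exact orderOf_eq_one_iff.1 h6
  -- the end
  intro b hb
  have hn : (centralizer (pCore p ↥L : Set ↥L)).Normal := by
    have := Lib.Cores.pCore_normal (G := ↥L) p
    infer_instance
  refine SignalizersComponents.CharP.le_pCore_of_forall hn (fun y hy hyo => ?_) hb
  apply Subtype.ext
  refine h2 y ?_ (by rwa [Subgroup.orderOf_coe])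
  rw [hB, mem_inf]
  refine ⟨y.2, ?_⟩
  rw [mem_centralizer_iff]
  rintro _ ⟨r, hr, rfl⟩
  exact congrArg Subtype.val (mem_centralizer_iff.1 hy r hr)

end Cfsg.Agent.H215.L2Out.Cent
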