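import Cfsg.Agent.H215.L2Out.Rgd

/-!
Simple groups of Lie type in characteristic two: an automorphism of order two which is trivial on `O_2(H)`, where the
subgroup `H` contains a Sylow 2-subgroup and `O_2(H) ≠ 1`, is inner.
-/

set_option autoImplicit false

namespace Cfsg.Agent.H215.L2Out.Filt

open CoxeterSystem Cfsg.Agent.ChevalleyStructure.CoxeterGeom Cfsg.Agent.Tits.Roots Cfsg.Agent.Tits.Core
  Cfsg.Agent.Tits.Exchange Cfsg.Agent.Nodes.Reps Cfsg.Agent.Nodes.BNOf Cfsg.Agent.Nodes.StabComb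
  Cfsg.Agent.Nodes.Bruhat Cfsg.Agent.Nodes.OppDec Cfsg.Agent.Nodes.LeviDec Cfsg.Agent.Nodes.NormalForm
  Cfsg.Agent.Nodes.NormX Cfsg.Agent.KFacts.RgdCent Cfsg.Agent.KFacts.RgdVJ
  Cfsg.Agent.KFacts.RgdOpp Cfsg.Agent.KFacts.RgdAut Cfsg.Agent.KFacts.RgdDiag Cfsg.Agent.KFacts.RgdRigid
  Cfsg.Agent.KFacts.RgdFixU Cfsg.Agent.H246.RgdFixUTwo Cfsg.Agent.KFacts.RgdCharP Cfsg.Agent.KFacts.RgdFilt

/-- `D = O_2(H)` for a subgroup `H` containing the Sylow subgroup `S`, in terms of subgroups of the whole group. -/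
structure Core {G : Type*} [Group G] (S : Subgroup G) (H D : Subgroup G) : Prop where
  syl : S ≤ H
  le : D ≤ H
  two : IsPGroup 2 D
  nml : ∀ g ∈ H, ∀ d ∈ D, g * d * g⁻¹ ∈ D
  max : ∀ E : Subgroup G, E ≤ H → IsPGroup 2 E → (∀ g ∈ H, ∀ e ∈ E, g * e * g⁻¹ ∈ E) → E ≤ D

theorem le_normalizer_of {G : Type*} [Group G] {H D : Subgroup G} (h : ∀ g ∈ H, ∀ d ∈ D, g * d * g⁻¹ ∈ D) :
    H ≤ Subgroup.normalizer (D : Set G) := by
  intro g hg
  rw [Subgroup.mem_normalizer_iff]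
  refine fun d => ⟨h g hg d, fun hd => ?_⟩
  have h1 := h g⁻¹ (inv_mem hg) _ hd
  have h2 : g⁻¹ * (g * d * g⁻¹) * g⁻¹⁻¹ = d := by group
  rwa [h2] at h1

theorem le_sylow_of {G : Type*} [Group G] [Finite G] {S : Sylow 2 G} {V : Subgroup G} (hV : IsPGroup 2 V)
    (h : (S : Subgroup G) ≤ Subgroup.normalizer (V : Set G)) : V ≤ S := by
  have h1 : IsPGroup 2 ↥((S : Subgroup G) ⊔ V) := IsPGroup.to_sup_of_normal_right' S.2 hV h
  have h2 := S.3 h1 le_sup_left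
  rw [← h2]
  exact le_sup_right

variable {G : Type*} [Group G] [Finite G] [IsSimpleGroup G]

/-- **The case of a root group datum with filtration.** -/
theorem inner_of_filt (hG : HasFilt 2 G) (hc : ∃ a b : G, a * b ≠ b * a) {α : MulAut G} (hα2 : α * α = 1)
    {S : Sylow 2 G} {H D : Subgroup G} (hD : Core (S : Subgroup G) H D) (hD1 : D ≠ ⊥) (hα : ∀ d ∈ D, α d = d) :
    ∃ z, α = MulAut.conj z := by
  have : Fact (Nat.Prime 2) := ⟨Nat.prime_two⟩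
  obtain ⟨l, M, A, h, T, n, X, R, hW, hBT, hGG, hN, hconn, hX, hl⟩ := hG.data hc
  obtain ⟨g, J, hJ, h1, h2⟩ := hBT D hD.two hD1
  set V := cj g (VJ M.toCoxeterSystem h X J) with hV
  have hVp : IsPGroup 2 V := by
    rw [hV]; unfold cj
    exact (isPGroup_VJ R J).map _
  have hPN : ∀ y ∈ cj g (PJ M.toCoxeterSystem h T X J), ∀ v ∈ V, y * v * y⁻¹ ∈ V := by
    intro y hy v hv
    rw [hV, mem_cj] at hv ⊢
    rw [mem_cj] at hy
    have h1 := (Subgroup.mem_normalizer_iff.1 (PJ_le_normalizer_VJ R J hy) _).1 hv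
    have h2 : g⁻¹ * y * g * (g⁻¹ * v * g) * (g⁻¹ * y * g)⁻¹ = g⁻¹ * (y * v * y⁻¹) * g := by group
    rwa [h2] at h1
  have hHN : H ≤ Subgroup.normalizer (D : Set G) := le_normalizer_of hD.nml
  have hHV : ∀ y ∈ H, ∀ v ∈ V, y * v * y⁻¹ ∈ V := fun y hy => hPN y (h2 (hHN hy))
  have hVS : V ≤ S := le_sylow_of hVp (le_trans hD.syl (le_normalizer_of hHV))
  have hVD : V ≤ D := hD.max V (le_trans hVS hD.syl) hVp hHV
  obtain ⟨z, -, hz⟩ := Rgd.eq_conj_of_fix_VJ R hX hN hconn hJ (α := MulAut.conj g⁻¹ * α * MulAut.conj g) (by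
      calc MulAut.conj g⁻¹ * α * MulAut.conj g * (MulAut.conj g⁻¹ * α * MulAut.conj g)
          = MulAut.conj g⁻¹ * (α * α) * MulAut.conj g := by rw [map_inv]; group
        _ = 1 := by rw [hα2, mul_one, ← map_mul, inv_mul_cancel, map_one]) (fun x hx => by
      have h2 := hα (g * x * g⁻¹) (hVD (conj_mem_cj.2 hx))
      show g⁻¹ * α (g * x * g⁻¹) * g⁻¹⁻¹ = x
      rw [h2]; group)
  refine ⟨g * z * g⁻¹, ?_⟩
  rw [map_mul, map_mul, ← hz, map_inv]; group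

end Cfsg.Agent.H215.L2Out.Filt
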