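import Cfsg.Prelude.Def_EvenType
import Cfsg.Agent.H215.L2Out.UThree
import Cfsg.Agent.H246.SzInner
import Cfsg.Agent.H246.TwF4Inner
import Cfsg.Agent.H246.TitsInner

/-!
Simple groups of Lie type in characteristic two: an automorphism of order two which is trivial on `O_2(H)`, where the
subgroup `H` contains a Sylow 2-subgroup and `O_2(H) ≠ 1`, is inner (or the group is `A₆`).
-/

set_option autoImplicit false

namespace Cfsg.Agent.H215.L2Out.Main

open Cfsg Cfsg.Agent.H215.L2Out.Filt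

variable {G : Type*} [Group G] [Finite G] [IsSimpleGroup G]

/-- **The main theorem.** -/
theorem inner_or (hc : ¬ IsMulCommutative G) (h : IsChevSimple 2 G) {α : MulAut G} (hα2 : α * α = 1)
    {S : Sylow 2 G} {H D : Subgroup G} (hD : Core (S : Subgroup G) H D) (hD1 : D ≠ ⊥) (hα : ∀ d ∈ D, α d = d) :
    (∃ z, α = MulAut.conj z) ∨ Nonempty (G ≃* ↥(alternatingGroup (Fin 6))) := by
  have hc' : ∃ a b : G, a * b ≠ b * a := by
    by_contra hcon
    push Not at hcon
    exact hc ⟨⟨hcon⟩⟩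
  have h21 : α ^ 2 ^ 1 = 1 := by rw [pow_one, pow_two, hα2]
  have filt : KFacts.RgdLieCharP.IsLieFilt 2 G → (∃ z, α = MulAut.conj z) := fun h1 =>
    inner_of_filt (KFacts.RgdLieCharP.hasFilt_of_lie h1) hc' hα2 hD hD1 hα
  rcases h with h | ⟨-, h⟩ | ⟨h, -⟩
  · left
    rcases h with h | h | h | h | h | h | h | h | ⟨-, h⟩ | ⟨-, h⟩ | ⟨h, -⟩
    · exact filt (Or.inl h)
    · exact filt (Or.inr (Or.inl h))
    · exact filt (Or.inr (Or.inr (Or.inl h)))
    · exact filt (Or.inr (Or.inr (Or.inr (Or.inl h))))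
    · exact filt (Or.inr (Or.inr (Or.inr (Or.inr (Or.inl h)))))
    · exact filt (Or.inr (Or.inr (Or.inr (Or.inr (Or.inr (Or.inl h))))))
    · exact filt (Or.inr (Or.inr (Or.inr (Or.inr (Or.inr (Or.inr (Or.inl h)))))))
    · exact filt (Or.inr (Or.inr (Or.inr (Or.inr (Or.inr (Or.inr (Or.inr h)))))))
    · exact Cfsg.Agent.H246.SzInner.inner_iso h α h21
    · exact Cfsg.Agent.H246.TwF4Inner.inner_iso h α h21
    · exact absurd h (by norm_num)
  · rcases h with h | ⟨F, _, _, hF, ⟨e⟩⟩ | h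
    · exact Or.inr h
    · exact Or.inl (UThree.inner_iso hF e hD hD1 hα)
    · exact Or.inl (Cfsg.Agent.H246.TitsInner.inner_iso h α hα2)
  · exact absurd h (by norm_num)

end Cfsg.Agent.H215.L2Out.Main
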