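import Cfsg.Agent.H246.RgdFixUTwo
import Cfsg.Agent.KFacts.RgdVJ
import Cfsg.Agent.KFacts.RgdLieCharP

/-!
Characteristic two: an automorphism of order two of a group with a root group datum which is trivial on the unipotent
radical `V_J` of a proper parabolic subgroup is inner.
-/

set_option autoImplicit false
set_option linter.unusedSectionVars false

namespace Cfsg.Agent.H215.L2Out.Rgd

open CoxeterSystem Cfsg.Agent.ChevalleyStructure.CoxeterGeom Cfsg.Agent.Tits.Roots Cfsg.Agent.Tits.Core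
  Cfsg.Agent.Tits.Exchange Cfsg.Agent.Nodes.Reps Cfsg.Agent.Nodes.BNOf Cfsg.Agent.Nodes.StabComb
  Cfsg.Agent.Nodes.Bruhat Cfsg.Agent.Nodes.OppDec Cfsg.Agent.Nodes.LeviDec Cfsg.Agent.Nodes.NormalForm
  Cfsg.Agent.Nodes.NormX Cfsg.Agent.KFacts.RgdCent Cfsg.Agent.KFacts.RgdVJ
  Cfsg.Agent.KFacts.RgdOpp Cfsg.Agent.KFacts.RgdAut Cfsg.Agent.KFacts.RgdDiag Cfsg.Agent.KFacts.RgdRigid
  Cfsg.Agent.KFacts.RgdFixU Cfsg.Agent.H246.RgdFixUTwo Cfsg.Agent.KFacts.RgdCharP
open scoped commutatorElement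

variable {I W Y : Type*} [Fintype I] [DecidableEq I] [Group W] [Group Y] {M : CoxeterMatrix I}
  {cs : CoxeterSystem M W} {A : I → I → ℤ} {h : IsCartan M A} {T : Subgroup Y} {n : I → Y}
  {X : (I → ℤ) → Subgroup Y}

theorem VJ_le_PosNe {i : I} {J : Set I} (hi : i ∈ J) : VJ cs h X J ≤ RGD.Sup X (RGD.PosNe cs h i) := by
  refine RGD.Sup_mono ?_
  rintro x ⟨h1, h2, k, hk, hk0⟩
  refine ⟨h1, h2, ?_⟩
  rintro rfl
  have hne : k ≠ i := by
    rintro rfl
    exact hk hi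
  rw [sr_ne hne] at hk0
  exact absurd hk0 (lt_irrefl 0)

variable (R : RGD cs h 2 T n X)

include R

/-- **An automorphism of order two trivial on `V_J` is inner.** -/
theorem eq_conj_of_fix_VJ [Finite W] [Finite Y] (hG1 : RGD.Sup X {x | IsRoot cs h x} = ⊤)
    (hN : NoCent cs h T X) (hconn : Conn M) {J : Set I} (hJ : J ≠ Set.univ) {α : MulAut Y}
    (hα2 : α * α = 1) (hα : ∀ x ∈ VJ cs h X J, α x = x) :
    ∃ z ∈ RGD.Sup X (RGD.Pos cs h), α = MulAut.conj z := by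
  have hG := GG_eq_top (T := T) hG1
  -- `α g ∈ g V_J` for `g ∈ P_J`
  have hcoset : ∀ g ∈ PJ cs h T X J, g⁻¹ * α g ∈ VJ cs h X J := by
    intro g hg
    have hgN := PJ_le_normalizer_VJ R J hg
    refine cent_VJ_le R hN hconn hJ (Subgroup.mem_inf.2 ⟨?_, by rw [hG]; trivial⟩)
    rw [Subgroup.mem_centralizer_iff]
    intro v hv
    have h1 : g * v * g⁻¹ ∈ VJ cs h X J := (Subgroup.mem_normalizer_iff.1 hgN v).1 hv
    have h2 : α g * v * (α g)⁻¹ = g * v * g⁻¹ := by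
      have h3 := hα _ h1
      rw [map_mul, map_mul, map_inv, hα v hv] at h3
      exact h3
    calc v * (g⁻¹ * α g) = g⁻¹ * (g * v * g⁻¹) * α g := by group
      _ = g⁻¹ * (α g * v * (α g)⁻¹) * α g := by rw [h2]
      _ = _ := by group
  have hUP : RGD.Sup X (RGD.Pos cs h) ≤ PJ cs h T X J := le_trans RGD.U_le_B B_le_PJ
  have hVU : VJ cs h X J ≤ RGD.Sup X (RGD.Pos cs h) := RGD.Sup_mono fun _ hx => ⟨hx.1, hx.2.1⟩
  have hUU : ∀ x ∈ RGD.Sup X (RGD.Pos cs h), α x ∈ RGD.Sup X (RGD.Pos cs h) := by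
    intro x hx
    have h1 := mul_mem hx (hVU (hcoset x (hUP hx)))
    rwa [mul_inv_cancel_left] at h1
  have hαα : ∀ x, α (α x) = x := by
    intro x
    rw [← MulAut.mul_apply, hα2, MulAut.one_apply]
  have hfix : Fix α (RGD.Sup X (RGD.Pos cs h)) := by
    intro x
    constructor
    · intro hx
      have h1 := hUU _ hx
      rwa [hαα] at h1
    · exact hUU x
  obtain ⟨u, hu, hU, hUN, hpow, σ, D⟩ := exists_frame_pow R hG hfix
  have hX : ∀ i, X (sr i) ≤ RGD.Sup X (RGD.Pos cs h) := fun i =>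
    RGD.le_Sup (S := RGD.Pos cs h) ⟨isRoot_sr cs h i, sr_nonneg i⟩
  have hβ : ∀ x, (MulAut.conj u * α) x = u * α x * u⁻¹ := by
    intro x
    rw [MulAut.mul_apply, MulAut.conj_apply]
  -- `α` is trivial on `X_i` modulo `V_i`
  have hA : ∀ i, ∀ x ∈ X (sr i), x⁻¹ * α x ∈ RGD.Sup X (RGD.PosNe cs h i) := by
    intro i x hx
    by_cases hi : i ∈ J
    · exact VJ_le_PosNe hi (hcoset x (hUP (hX i hx)))
    · have h1 : x ∈ VJ cs h X J := RGD.le_Sup (S := NotJ cs h J) (sr_mem_NotJ hi) hx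
      rw [hα x h1, inv_mul_cancel]
      exact one_mem _
  -- `u * α u = 1`
  have huu : u * α u = 1 := by
    apply eq_one_of_fix_conj R hG (mul_mem hu (hUU u hu))
    have h1 := hpow 2 (by rw [pow_two, hα2])
    have h2 : (MulAut.conj (u * α u) : MulAut Y) = 1 := by
      rw [← h1, pow_two]
      ext x
      simp only [MulAut.mul_apply, MulAut.conj_apply, map_mul, map_inv, mul_inv_rev]
      rw [hαα]
    rw [h2]
    intro x
    rfl
  -- `σ = 1`
  have hσ : ∀ i, σ i = i := by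
    intro i
    by_contra hne
    obtain ⟨x, hx, hx1⟩ := exists_ne_one R i
    have h1 := (D.pos i x).2 hx
    rw [hβ x] at h1
    have h2 : u * α x * u⁻¹ ∈ RGD.Sup X (RGD.PosNe cs h i) := by
      refine RGD.le_Sup (S := RGD.PosNe cs h i) ⟨isRoot_sr cs h (σ i), sr_nonneg _, ?_⟩ h1
      intro h3
      have h4 := congrFun h3 (σ i)
      rw [sr_self, sr_ne hne] at h4
      exact one_ne_zero h4
    have h3 : α x ∈ RGD.Sup X (RGD.PosNe cs h i) :=
      (Subgroup.mem_normalizer_iff.1 (U_le_normalizer_V R i hu) _).2 h2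
    have h4 : x ∈ RGD.Sup X (RGD.PosNe cs h i) := by
      have h5 := mul_mem h3 (inv_mem (hA i x hx))
      have h6 : α x * (x⁻¹ * α x)⁻¹ = x := by group
      rwa [h6] at h5
    exact hx1 (eq_one_of_mem_PosNe R hx h4)
  have hσ1 : σ = 1 := Equiv.ext hσ
  subst hσ1
  -- `α` preserves `V_i`
  have hB : ∀ i, ∀ v ∈ RGD.Sup X (RGD.PosNe cs h i), α v ∈ RGD.Sup X (RGD.PosNe cs h i) := by
    intro i v hv
    have h1 : RGD.Sup X (RGD.PosNe cs h i) ≤
        (RGD.Sup X (RGD.PosNe cs h i)).comap (MulAut.conj u * α : MulAut Y).toMonoidHom := by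
      refine RGD.Sup_le fun r hr x hx => ?_
      rw [Subgroup.mem_comap]
      have h2 := (D.root_comp R (fun i j => rfl) hr.1 x).2 hx
      exact RGD.le_Sup (S := RGD.PosNe cs h i) hr h2
    have h2 : u * α v * u⁻¹ ∈ RGD.Sup X (RGD.PosNe cs h i) := by
      rw [← hβ]
      exact h1 hv
    exact (Subgroup.mem_normalizer_iff.1 (U_le_normalizer_V R i hu) _).2 h2
  -- `β` is trivial on the simple root groups
  have hpos : ∀ i, ∀ x ∈ X (sr i), (MulAut.conj u * α) x = x := by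
    intro i x hx
    have h1 := (D.pos i x).2 hx
    rw [Equiv.Perm.one_apply, hβ x] at h1
    rw [hβ x]
    obtain ⟨a, ha, v, hv, rfl⟩ := exists_mul_V R i hu
    have hVn : ∀ g ∈ RGD.Sup X (RGD.Pos cs h), ∀ w ∈ RGD.Sup X (RGD.PosNe cs h i),
        g * w * g⁻¹ ∈ RGD.Sup X (RGD.PosNe cs h i) := fun g hg w hw =>
      (Subgroup.mem_normalizer_iff.1 (U_le_normalizer_V R i hg) w).1 hw
    -- `a² = 1`
    have haU := hX i ha
    have hvU := V_le_U R i hv
    have haa : a * a = 1 := by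
      refine eq_one_of_mem_PosNe R (mul_mem ha ha) ?_
      have h4 : a * a = (a⁻¹ * v * a * (a⁻¹ * α a) * α v)⁻¹ := by
        have h5 : a * a * (a⁻¹ * v * a * (a⁻¹ * α a) * α v) = a * v * α (a * v) := by
          rw [map_mul]; group
        exact eq_inv_of_mul_eq_one_left (h5.trans huu)
      rw [h4]
      refine inv_mem (mul_mem (mul_mem ?_ (hA i a ha)) (hB i v hv))
      have h5 := hVn a⁻¹ (inv_mem haU) v hv
      rwa [inv_inv] at h5
    -- `a` is central in `X i`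
    have hax : a * x = x * a := (ro R i).central ha haa hx
    obtain ⟨w, hw⟩ : ∃ w, w = x⁻¹ * α x := ⟨_, rfl⟩
    have hwV : w ∈ RGD.Sup X (RGD.PosNe cs h i) := by rw [hw]; exact hA i x hx
    have hαx : α x = x * w := by rw [hw]; group
    have h2 : a * v * α x * (a * v)⁻¹ * x⁻¹ ∈ X (sr i) := mul_mem h1 (inv_mem hx)
    have h3 : a * v * α x * (a * v)⁻¹ * x⁻¹ = a * v * a⁻¹ * (a * x * w * (a * x)⁻¹) * (a * x * v⁻¹ * (a * x)⁻¹) := by
      have h4 : (a * x)⁻¹ = a⁻¹ * x⁻¹ := by rw [hax, mul_inv_rev]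
      have h5 : a * v * α x * (a * v)⁻¹ * x⁻¹ = a * v * a⁻¹ * (a * x * w * (a * x)⁻¹) * (a * x * v⁻¹) * (a⁻¹ * x⁻¹) := by
        rw [hαx]; group
      rw [h5, h4]; group
    have h4 : a * v * α x * (a * v)⁻¹ * x⁻¹ ∈ RGD.Sup X (RGD.PosNe cs h i) := by
      rw [h3]
      exact mul_mem (mul_mem (hVn a haU v hv) (hVn _ (mul_mem haU (hX i hx)) w hwV))
        (hVn _ (mul_mem haU (hX i hx)) _ (inv_mem hv))
    exact mul_inv_eq_one.1 (eq_one_of_mem_PosNe R h2 h4)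
  have h1 := Diag.eq_one R hG1 D hpos
  refine ⟨u⁻¹, inv_mem hu, ?_⟩
  rw [map_inv]
  exact eq_inv_of_mul_eq_one_right h1

end Cfsg.Agent.H215.L2Out.Rgd
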